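import Cfsg.Agent.Lib.SP7.Bz

/-! # Four isolated cyclic tori of `E₇(q)` -/

set_option autoImplicit false
set_option linter.unusedSimpArgs false

namespace Cfsg.Lib.SP7

open Matrix Cfsg.Lib.Chev Cfsg.Lie

variable {F : Type*} [Field F] [Fintype F] {q r : ℕ}

theorem iso (hF : Fintype.card F = q) (hr : r.Prime) (l : List (Fin 7)) {X : List (List ℤ)} (P : List (List ℤ))
    (a : List ℤ) {g : List ℤ} {C : ℤ} {T k N : ℕ} (bz : Bz X g C T)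
    (h1 : ∀ i j, (Matrix.of (toM 7 7 (wordM 7 [[2, 0, -1, 0, 0, 0, 0], [0, 2, 0, -1, 0, 0, 0], [-1, 0, 2, -1, 0, 0, 0],
      [0, -1, -1, 2, -1, 0, 0], [0, 0, 0, -1, 2, -1, 0], [0, 0, 0, 0, -1, 2, -1], [0, 0, 0, 0, 0, -1, 2]]
      (l.map Fin.val))) * Matrix.of (toM 7 7 X)) i j = (Matrix.of (toM 7 7 X) * cmpM (toV 7 a)) i j)
    (h2 : Matrix.of (toM 7 7 X) * Matrix.of (toM 7 7 P) = 1) (h0 : IsUnit (toV 7 a 0))
    (ho : ∀ x : ZMod 2, evL x g ≠ 0) (hk : (k : ℤ) = evL (q : ℤ) g)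
    (hN : (N : ℤ) = (q : ℤ) ^ 7 + evL (q : ℤ) (List.ofFn (toV 7 a))) (kN : k ∣ N) (h : r ∣ k)
    (hC : r ≠ 2 → ¬ (r : ℤ) ∣ C) : ∃ t : chevE7.group F, orderOf t * Nat.gcd 2 (q - 1) = N ∧
      ∀ g : chevE7.group F, r ∣ orderOf g → orderOf g ∣ orderOf t := by
  have hg : (r : ℤ) ∣ evL (q : ℤ) g := hk ▸ Int.natCast_dvd_natCast.2 h
  have r2 : r ≠ 2 := by
    rintro rfl
    refine ho q (Eq.trans ?_ ((ZMod.intCast_zmod_eq_zero_iff_dvd _ 2).2 hg))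
    clear bz ho hk hg
    induction g with
    | nil => simp [evL]
    | cons a l ih => simp [evL, ih]
  exact checkedE7.iso_spec (by simp) (algE7 _) l (a := toV 7 a)
    (IsCartan.wM_wp_mul (n := 7) (isCartanE7 _) (by decide +kernel) h1) h2 (by decide) h0 hF
    (by rw [(kerDataE7 _).card_kerChr_finite, Nat.card_eq_fintype_card, hF]; simp)
    (by rw [hN, evL_ofFn]; rfl) hr (h.trans kN)
    (fun e => r2 ((Nat.prime_dvd_prime_iff_eq hr Nat.prime_two).1 (e.trans (Nat.gcd_dvd_left _ _))))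
    (bz.reg hg (hC r2))

theorem not_three (hr : r.Prime) (h3 : r ≠ 3) (_ : r ≠ 2) : ¬ (r : ℤ) ∣ 3 := fun e =>
  h3 ((Nat.prime_dvd_prime_iff_eq hr Nat.prime_three).1 (by exact_mod_cast e))

theorem not_fourteen (hr : r.Prime) (h7 : r ≠ 7) (h2 : r ≠ 2) : ¬ (r : ℤ) ∣ 14 := fun e =>
  (hr.dvd_mul.1 (show r ∣ 2 * 7 by exact_mod_cast e)).elim
    (fun e => h2 ((Nat.prime_dvd_prime_iff_eq hr Nat.prime_two).1 e))
    fun e => h7 ((Nat.prime_dvd_prime_iff_eq hr (by norm_num)).1 e)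

theorem e7_18 (hF : Fintype.card F = q) (hr : r.Prime) (h3 : r ≠ 3) (h : r ∣ q ^ 6 - q ^ 3 + 1) :
    ∃ t : chevE7.group F, orderOf t * Nat.gcd 2 (q - 1) = (q + 1) * (q ^ 6 - q ^ 3 + 1) ∧
      ∀ g : chevE7.group F, r ∣ orderOf g → orderOf g ∣ orderOf t := by
  have h1 : 1 ≤ q := hF ▸ Fintype.card_pos
  have h2 : q ^ 3 ≤ q ^ 6 := Nat.pow_le_pow_right h1 (by omega)
  exact iso hF hr [1, 5, 6, 0, 3, 2, 4]
    [[-1, 0, 0, 1, -1, 0, 0], [1, 1, 0, -1, 0, 0, 0], [0, -1, -1, 1, 0, 0, 0], [-1, 1, 1, -1, 0, 0, 0], [1, -1, 0, 0, 0, 0, 0], [-1, 0, 0, 0, 1, -1, 0], [0, 0, 1, -1, 0, 0, 1]]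
    [1, 1, 0, -1, -1, 0, 1] bz18 (by decide +kernel) (by decide +kernel) (by decide) (by decide)
    (by simp [evL, h1, h2]; ring) (by simp [evL, toV, h1, h2]; ring) (dvd_mul_left _ _) h (not_three hr h3)

theorem e7_9 (hF : Fintype.card F = q) (hr : r.Prime) (h3 : r ≠ 3) (h : r ∣ q ^ 6 + q ^ 3 + 1) :
    ∃ t : chevE7.group F, orderOf t * Nat.gcd 2 (q - 1) = (q - 1) * (q ^ 6 + q ^ 3 + 1) ∧
      ∀ g : chevE7.group F, r ∣ orderOf g → orderOf g ∣ orderOf t := by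
  have h1 : 1 ≤ q := hF ▸ Fintype.card_pos
  have h2 : q ^ 3 ≤ q ^ 6 := Nat.pow_le_pow_right h1 (by omega)
  exact iso hF hr [5, 2, 3, 0, 1, 4, 3, 4]
    [[0, 0, -1, 0, 1, 0, 0], [1, 1, -1, 0, 0, 0, 0], [0, 0, 0, 1, -1, 0, 0], [0, -1, 1, 0, 0, 0, 0], [-1, 0, 1, -1, 1, 0, 0], [0, 1, 0, -1, 0, 1, 0], [0, 1, 0, 0, -1, 0, 1]]
    [-1, 1, 0, -1, 1, 0, -1] bz9 (by decide +kernel) (by decide +kernel) (by decide) (by decide)
    (by simp [evL, h1, h2]; ring) (by simp [evL, toV, h1, h2]; ring) (dvd_mul_left _ _) h (not_three hr h3)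

theorem e7_14 (hF : Fintype.card F = q) (hr : r.Prime) (h7 : r ≠ 7) (h : r ∣ q * (q - 1) * (q ^ 4 + q ^ 2 + 1) + 1) :
    ∃ t : chevE7.group F, orderOf t * Nat.gcd 2 (q - 1) = (q + 1) * (q * (q - 1) * (q ^ 4 + q ^ 2 + 1) + 1) ∧
      ∀ g : chevE7.group F, r ∣ orderOf g → orderOf g ∣ orderOf t := by
  have h1 : 1 ≤ q := hF ▸ Fintype.card_pos
  have h2 : q ^ 3 ≤ q ^ 6 := Nat.pow_le_pow_right h1 (by omega)
  exact iso hF hr [3, 1, 3, 5, 4, 3, 6, 2, 0]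
    [[-1, 0, 0, 1, -1, 0, 0], [0, -1, -1, 1, 0, 0, 0], [0, 0, 0, -1, 1, 0, 0], [1, 1, 0, -1, 0, 0, 0], [0, 0, 1, 0, -1, 0, 0], [0, -1, 0, 1, 0, -1, 0], [0, -1, 0, 0, 1, -1, 1]]
    [1, 0, 0, 0, 0, 0, 0] bz14 (by decide +kernel) (by decide +kernel) (by decide) (by decide)
    (by simp [evL, h1, h2]; ring) (by simp [evL, toV, h1, h2]; ring) (dvd_mul_left _ _) h (not_fourteen hr h7)

theorem e7_7 (hF : Fintype.card F = q) (hr : r.Prime) (h7 : r ≠ 7) (h : r ∣ q ^ 6 + q ^ 5 + q ^ 4 + q ^ 3 + q ^ 2 + q + 1) :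
    ∃ t : chevE7.group F, orderOf t * Nat.gcd 2 (q - 1) = (q - 1) * (q ^ 6 + q ^ 5 + q ^ 4 + q ^ 3 + q ^ 2 + q + 1) ∧
      ∀ g : chevE7.group F, r ∣ orderOf g → orderOf g ∣ orderOf t := by
  have h1 : 1 ≤ q := hF ▸ Fintype.card_pos
  have h2 : q ^ 3 ≤ q ^ 6 := Nat.pow_le_pow_right h1 (by omega)
  exact iso hF hr [0, 5, 3, 4, 6, 2]
    [[-1, 0, 1, 0, 0, 0, -1], [1, 0, 0, 0, 0, -1, 1], [0, 0, -1, 0, 1, 0, 0], [-1, 0, 1, 0, -1, 1, 0], [1, 0, 0, 0, 0, 0, -1], [0, 0, -1, 1, 0, -1, 1], [0, 1, 0, -1, 0, 1, 0]]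
    [-1, 0, 0, 0, 0, 0, 0] bz7 (by decide +kernel) (by decide +kernel) (by decide) (by decide)
    (by simp [evL, h1, h2]; ring) (by simp [evL, toV, h1, h2]; ring) (dvd_mul_left _ _) h (not_fourteen hr h7)

end Cfsg.Lib.SP7
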